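import Mathlib
import Cfsg.Agent.H25.TITools

/-!
# Goodness of the constituents of a product in the extreme case
-/

set_option autoImplicit false

open scoped ComplexConjugate

namespace Cfsg.Agent.H25

universe u

namespace TIData

variable {G : Type u} [Group G] (D : TIData G)
variable [Fintype G] [Fintype D.P] [Fintype D.C] [Fintype D.N]

/-- A constituent `η ∘ π` of `Z Z̄` with `η` in the free orbit. -/
theorem exists_hom_in_orbit {Z : Cfsg.IrrCharacter G} {z : D.C → ℂ} (hz : D.Good Z.1 z)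
    {d a : ℕ} (hd : Z.1 1 = (d : ℂ)) (hd2 : 2 ≤ d) (ha : D.avg (D.res Z.1) 1 = (a : ℂ))
    (hda : d = a + D.e * Cfsg.charDegree z)
    (hV : ∀ c : D.C, D.π c = 1 → Z.1 c * conj (Z.1 c) = (d : ℂ) * d)
    (hgoodW : ∀ Y : Cfsg.IrrCharacter G, Y ≠ H26.oneIrr G →
      Cfsg.classInner (fun x => Z.1 x * conj (Z.1 x)) Y.1 ≠ 0 → ∃ s, D.Good Y.1 s)
    {Y : Cfsg.IrrCharacter G} (hbad : ¬ ∃ s, D.Good Y.1 s)
    {μ₀ : D.P →* ℂˣ} (h0 : μ₀ ≠ 1) (hf0 : μ₀ ∉ D.supp (D.res Y.1))
    (hY1 : ∀ η : D.P →* ℂˣ, η ≠ 1 → η ∉ D.orbP μ₀ →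
      D.mult (D.res Y.1) (fun c => (η (D.π c) : ℂ)) = 1) :
    ∃ η : D.P →* ℂˣ, η ∈ D.orbP μ₀ ∧ η ≠ 1 ∧
      D.mult (D.res fun x => Z.1 x * conj (Z.1 x)) (fun c => (η (D.π c) : ℂ)) ≠ 0 := by
  classical
  have hW : Cfsg.IsCharacter G fun x => Z.1 x * conj (Z.1 x) := isCharacter_mul_conj Z Z
  have hR := D.isCharacter_res hW
  have hW1 : (Z.1 1 * conj (Z.1 1)) = (d : ℂ) * d := by rw [hd, Complex.conj_natCast]
  by_cases hex : ∃ t, Cfsg.IsIrrCharacter D.C t ∧ D.NT t ∧
      D.mult (D.res fun x => Z.1 x * conj (Z.1 x)) t ≠ 0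
  · obtain ⟨t, ht, htn, htm⟩ := hex
    obtain ⟨η, hη⟩ := D.exists_over ht
    have hη1 := D.over_ne_one htn hη
    have hteq : t = fun c => (η (D.π c) : ℂ) := D.eq_hom_of_trivial ht hη fun c hc => by
      refine constituent_apply_eq_one hR ?_ ⟨t, ht⟩ ?_
      · simp only [res, OneMemClass.coe_one]
        rw [hV c hc, hW1]
      · rw [← D.mult_eq hR ht]
        exact_mod_cast htm
    refine ⟨η, ?_, hη1, hteq ▸ htm⟩
    by_contra hno
    obtain ⟨m, hm, -⟩ := H26.exists_nat_coeffs hW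
    rw [D.mult_res_eq_sum hW hm ht] at htm
    obtain ⟨Y', -, hY'⟩ := Finset.exists_ne_zero_of_sum_ne_zero htm
    obtain ⟨hmY', hY't⟩ := Nat.mul_ne_zero_iff.mp hY'
    have hne1 : Y' ≠ H26.oneIrr G := by
      rintro rfl
      have h1 : D.nt (D.res (H26.oneIrr G).1) = 0 := D.nt_res_one
      have h2 := D.classInner_nt_irr (D.res (H26.oneIrr G).1) ht
      rw [h1, H26.classInner_zero_left, if_pos htn,
        ← D.mult_eq (D.isCharacter_res (H26.irr_isCharacter _)) ht] at h2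
      exact hY't (Nat.cast_eq_zero.mp h2.symm)
    obtain ⟨s, hs⟩ := hgoodW Y' hne1 (by rw [hm Y']; exact_mod_cast hmY')
    have hν := D.over_tw_div hη μ₀
    have htw := D.isIrr_tw ht (μ₀ * η⁻¹)
    have htwn := D.nt_of_over (D.irr_ne_zero htw) hν h0
    have hno' : ¬ D.Orb t (D.tw t (μ₀ * η⁻¹)) := fun h => by
      obtain ⟨g, hg⟩ := D.over_of_orb ht hη hν h
      refine hno ?_
      rw [D.orbP_eq_of_mem (show μ₀ ∈ D.orbP η from ⟨g, hg⟩)]
      exact D.mem_orbP_self η
    have hst : D.Orb s t := by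
      by_contra h
      exact hY't (by rw [Good.mult D (H26.irr_isCharacter Y') hs ht htn, if_neg h])
    have hYeq : Y = Y' := by
      refine D.eq_of_mult_eq_one ht htn htwn hno' ?_ ?_ ?_ ?_
      · rw [hteq]; exact hY1 η hη1 hno
      · by_contra h
        exact hf0 ⟨h0, _, htw, hν, h⟩
      · rw [Good.mult D (H26.irr_isCharacter Y') hs ht htn, if_pos hst]
      · rw [Good.mult D (H26.irr_isCharacter Y') hs htw htwn,
          if_neg fun h => hno' (D.orb_trans (D.orb_symm hst) h)]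
    exact hbad ⟨s, hYeq ▸ hs⟩
  · exfalso
    have hnt : D.nt (D.res fun x => Z.1 x * conj (Z.1 x)) = 0 := by
      rw [D.nt_eq_sum hR]
      refine Finset.sum_eq_zero fun t _ => ?_
      split_ifs with h
      · have : D.mult (D.res fun x => Z.1 x * conj (Z.1 x)) t.1 = 0 :=
          by_contra fun hne => hex ⟨t.1, t.2, h, hne⟩
        simp [this]
      · simp
    rw [nt, sub_eq_zero] at hnt
    have hover : D.Over (D.res fun x => Z.1 x * conj (Z.1 x)) 1 := hnt ▸ D.over_avg _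
    have hconst : ∀ c : D.C, Z.1 c * conj (Z.1 c) = (d : ℂ) * d := fun c => by
      have h := D.over_iff.mp hover (D.π c) ((D.incl (D.π c))⁻¹ * c)
      rw [mul_inv_cancel_left, MonoidHom.one_apply, Units.val_one, one_mul] at h
      exact h.trans (hV _ (D.π_kerPart c))
    have hnC : (Nat.card D.C : ℂ) ≠ 0 := Nat.cast_ne_zero.mpr Nat.card_pos.ne'
    have hRR : Cfsg.classInner (D.res Z.1) (D.res Z.1) = (d : ℂ) * d := by
      unfold Cfsg.classInner
      rw [Finset.sum_congr rfl fun (c : D.C) _ =>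
          show D.res Z.1 c * conj (D.res Z.1 c) = (d : ℂ) * d from hconst c,
        Finset.sum_const, nsmul_eq_mul, Finset.card_univ, ← Nat.card_eq_fintype_card,
        inv_mul_cancel_left₀ hnC]
    have h1 := D.classInner_nt_nt (D.res Z.1) (D.res Z.1)
    rw [hz.2.2, D.classInner_orbSum_orbSum hz.1 hz.2.1 hz.1, if_pos (D.orb_refl z), hRR] at h1
    have hA := D.isCharacter_avg (D.isCharacter_res (H26.irr_isCharacter Z))
    have hadeg : Cfsg.charDegree (D.avg (D.res Z.1)) = a := by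
      have h := char_one_eq_charDegree hA
      rw [ha] at h
      exact_mod_cast h.symm
    have hAA : (Cfsg.classInner (D.avg (D.res Z.1)) (D.avg (D.res Z.1))).re ≤ (a : ℝ) * a := by
      have hterm : ∀ c : D.C, Complex.normSq (D.avg (D.res Z.1) c) ≤ (a : ℝ) * a := fun c => by
        have h := norm_le_charDegree hA c
        rw [hadeg] at h
        rw [Complex.normSq_eq_norm_sq, sq]
        exact mul_le_mul h h (norm_nonneg _) (Nat.cast_nonneg _)
      have heq : Cfsg.classInner (D.avg (D.res Z.1)) (D.avg (D.res Z.1)) =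
          (((Nat.card D.C : ℝ)⁻¹ * ∑ c : D.C, Complex.normSq (D.avg (D.res Z.1) c) : ℝ) : ℂ) := by
        simp [Cfsg.classInner, Complex.mul_conj]
      rw [heq, Complex.ofReal_re, inv_mul_le_iff₀ (Nat.cast_pos.mpr Nat.card_pos)]
      calc ∑ c : D.C, Complex.normSq (D.avg (D.res Z.1) c) ≤ ∑ _c : D.C, (a : ℝ) * a :=
            Finset.sum_le_sum fun c _ => hterm c
        _ = _ := by simp [Nat.card_eq_fintype_card]
    have h2 := congrArg Complex.re h1
    simp only [Complex.natCast_re, Complex.sub_re, Complex.mul_re, Complex.natCast_im, mul_zero,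
      sub_zero] at h2
    have h3 : d * d ≤ a * a + D.e := by
      have : (d : ℝ) * d ≤ (a : ℝ) * a + D.e := by linarith
      exact_mod_cast this
    have he1 := D.one_le_e
    have hf1 : 1 ≤ Cfsg.charDegree z := Nat.one_le_iff_ne_zero.mpr fun h => D.irr_ne_zero hz.1
      (by rw [char_one_eq_charDegree (H26.isCharacter_of_irr hz.1), h, Nat.cast_zero])
    generalize Cfsg.charDegree z = f at hda hf1
    generalize D.e = e at hda he1 h3
    subst hda
    have h4 : 2 * a * (e * f) + e * f * (e * f) ≤ e := by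
      have : (a + e * f) * (a + e * f) = a * a + (2 * a * (e * f) + e * f * (e * f)) := by ring
      omega
    have h5 : e ≤ e * f := Nat.le_mul_of_pos_right e hf1
    have h6 : e * f * (e * f) ≥ e * f := Nat.le_mul_of_pos_right _ (by omega)
    have h7 : 2 * a * (e * f) = 0 := by omega
    have h8 : e * f * (e * f) = e * f := by omega
    have h9 : e * f = 1 := Nat.eq_of_mul_eq_mul_left (show 0 < e * f by omega) (by rw [mul_one]; exact h8)
    rw [h9, mul_one] at h7
    omega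

/-- All constituents of `χ X̄` are good. -/
theorem good_of_product
    (hsimple : ∀ Y : Cfsg.IrrCharacter G, D.nt (D.res Y.1) = 0 → Y = H26.oneIrr G)
    {χ X : Cfsg.IrrCharacter G} (hne : χ ≠ X) {s s' : D.C → ℂ} (hs : D.Good χ.1 s)
    (hs' : D.Good X.1 s') (hA : D.avg (D.res X.1) = D.avg (D.res χ.1))
    (hV : ∀ c : D.C, D.π c = 1 → X.1 c = χ.1 c)
    {d a : ℕ} (hd : χ.1 1 = (d : ℂ)) (hd2 : 2 ≤ d) (ha : D.avg (D.res χ.1) 1 = (a : ℂ))
    (hda : d = a + D.e * Cfsg.charDegree s) (hda' : d = a + D.e * Cfsg.charDegree s')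
    (hdq : d * d + 1 < Nat.card D.P)
    (hK : D.avg (D.res fun x => χ.1 x * conj (X.1 x)) =
      fun c => D.avg (D.res χ.1) c * conj (D.avg (D.res χ.1) c))
    (hgood' : ∀ Y : Cfsg.IrrCharacter G, Y ≠ H26.oneIrr G →
      (Cfsg.classInner (fun x => χ.1 x * conj (χ.1 x)) Y.1 ≠ 0 ∨
        Cfsg.classInner (fun x => X.1 x * conj (X.1 x)) Y.1 ≠ 0) → ∃ t, D.Good Y.1 t)
    {Y : Cfsg.IrrCharacter G} (hY : Y ≠ H26.oneIrr G)
    (hYW : Cfsg.classInner (fun x => χ.1 x * conj (X.1 x)) Y.1 ≠ 0) : ∃ t, D.Good Y.1 t := by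
  classical
  by_contra hbad
  have hW : Cfsg.IsCharacter G fun x => χ.1 x * conj (X.1 x) := isCharacter_mul_conj χ X
  have hR := D.isCharacter_res hW
  have hRY := D.isCharacter_res (H26.irr_isCharacter Y)
  have hX1 : X.1 1 = (d : ℂ) := by simpa [hd] using hV 1 (map_one _)
  -- the degree of the nontrivial part of the product
  let N := D.ntDeg (D.res fun x => χ.1 x * conj (X.1 x))
  have hN : N + a * a = d * d := by
    have h := D.nt_one hR
    rw [nt, Pi.sub_apply, hK] at h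
    simp only [res, OneMemClass.coe_one, hd, hX1, Complex.conj_natCast] at h
    rw [ha, Complex.conj_natCast] at h
    have : ((N + a * a : ℕ) : ℂ) = ((d * d : ℕ) : ℂ) := by push_cast; linear_combination -h
    exact_mod_cast this
  have hexpand : (a + D.e * Cfsg.charDegree s) * (a + D.e * Cfsg.charDegree s) =
      a * a + D.e * (Cfsg.charDegree s * (2 * a + D.e * Cfsg.charDegree s)) := by ring
  rw [← hda] at hexpand
  have hNeq : N = D.e * (Cfsg.charDegree s * (2 * a + D.e * Cfsg.charDegree s)) := by omega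
  obtain ⟨μ₀, h0, hf0, hall, hsuppN, hNq⟩ := D.exists_single_free hsimple hY hbad
    (D.ntDeg_le_of_constituent hW hYW) ⟨_, hNeq⟩ (by omega)
  have hYdeg : D.ntDeg (D.res Y.1) = N :=
    le_antisymm (D.ntDeg_le_of_constituent hW hYW) (hsuppN.symm.trans_le D.ncard_supp_le)
  -- multiplicities in the product are those in `Y`, all one and all linear
  have hmult : ∀ t : Cfsg.IrrCharacter D.C, D.NT t.1 →
      D.mult (D.res fun x => χ.1 x * conj (X.1 x)) t.1 = D.mult (D.res Y.1) t.1 := by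
    have h := (Finset.sum_eq_sum_iff_of_le (s := Finset.univ)
      (f := fun t : Cfsg.IrrCharacter D.C =>
        if D.NT t.1 then D.mult (D.res Y.1) t.1 * Cfsg.charDegree t.1 else 0)
      (g := fun t : Cfsg.IrrCharacter D.C => if D.NT t.1 then
        D.mult (D.res fun x => χ.1 x * conj (X.1 x)) t.1 * Cfsg.charDegree t.1 else 0)
      (fun t _ => by
        split_ifs
        · exact Nat.mul_le_mul_right _ (D.mult_le_of_constituent hW hYW t.2)
        · exact le_rfl)).mp hYdeg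
    intro t ht
    have h2 := h t (Finset.mem_univ _)
    simp only [if_pos ht] at h2
    refine (Nat.eq_of_mul_eq_mul_right (Nat.pos_of_ne_zero fun h0 => D.irr_ne_zero t.2 ?_) h2).symm
    rw [char_one_eq_charDegree (H26.irr_isCharacter t), h0, Nat.cast_zero]
  have hone : ∀ t : Cfsg.IrrCharacter D.C, D.NT t.1 → D.mult (D.res Y.1) t.1 ≠ 0 →
      D.mult (D.res Y.1) t.1 = 1 ∧ Cfsg.charDegree t.1 = 1 := by
    intro t ht htm
    let T := Finset.univ.filter fun t : Cfsg.IrrCharacter D.C =>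
      D.NT t.1 ∧ D.mult (D.res Y.1) t.1 ≠ 0
    have hTN : N ≤ T.card := hsuppN.symm.trans_le D.ncard_supp_le_card
    have hTN' : T.card ≤ N := hYdeg ▸ D.card_le_ntDeg
    have hsum : ∑ t : Cfsg.IrrCharacter D.C,
        (if D.NT t.1 ∧ D.mult (D.res Y.1) t.1 ≠ 0 then 1 else 0) =
        ∑ t : Cfsg.IrrCharacter D.C,
          (if D.NT t.1 then D.mult (D.res Y.1) t.1 * Cfsg.charDegree t.1 else 0) := by
      rw [← Finset.card_filter]
      exact (le_antisymm hTN' hTN).trans hYdeg.symm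
    have h2 := (Finset.sum_eq_sum_iff_of_le (fun t _ => by
      split_ifs with h h' h'
      · exact D.one_le_mult_mul_deg h.2
      · exact absurd h.1 h'
      · exact Nat.zero_le _
      · exact le_rfl)).mp hsum t (Finset.mem_univ _)
    rw [if_pos ⟨ht, htm⟩, if_pos ht] at h2
    exact ⟨Nat.eq_one_of_mul_eq_one_right h2.symm, Nat.eq_one_of_mul_eq_one_left h2.symm⟩
  -- the product is irreducible
  obtain ⟨m, hm, -⟩ := H26.exists_nat_coeffs hW
  have hm1 : m (H26.oneIrr G) = 0 := by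
    have h := hm (H26.oneIrr G)
    rw [show (H26.oneIrr G).1 = fun _ => (1 : ℂ) from rfl, classInner_mul_conj_one,
      H26.classInner_irr, if_neg hne] at h
    exact_mod_cast h.symm
  have hmY : m Y ≠ 0 := fun h => hYW (by simp [hm Y, h])
  have hsplit : ∀ (Z : Cfsg.IrrCharacter G) (t : Cfsg.IrrCharacter D.C), Z ≠ Y → D.NT t.1 →
      m Y * D.mult (D.res Y.1) t.1 + m Z * D.mult (D.res Z.1) t.1 ≤ D.mult (D.res Y.1) t.1 := by
    intro Z t hZ ht
    conv_rhs => rw [← hmult t ht, D.mult_res_eq_sum hW hm t.2]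
    have h := Finset.sum_le_sum_of_subset_of_nonneg
      (f := fun Z => m Z * D.mult (D.res Z.1) t.1) (Finset.subset_univ ({Y, Z} : Finset _))
      (fun _ _ _ => Nat.zero_le _)
    rwa [Finset.sum_pair hZ.symm] at h
  have hmZ : ∀ Z, Z ≠ Y → m Z = 0 := by
    intro Z hZ
    by_cases hZ1 : Z = H26.oneIrr G
    · exact hZ1 ▸ hm1
    obtain ⟨t, ht, htn, htm⟩ := D.exists_nt_mult hsimple hZ1
    have h := hsplit Z ⟨t, ht⟩ hZ htn
    have h2 : D.mult (D.res Y.1) t ≤ m Y * D.mult (D.res Y.1) t :=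
      Nat.le_mul_of_pos_left _ (Nat.pos_of_ne_zero hmY)
    have h3 : m Z * D.mult (D.res Z.1) t = 0 := by simp only at h; omega
    exact (Nat.mul_eq_zero.mp h3).resolve_right htm
  obtain ⟨t₀, ht₀, ht₀n, ht₀m⟩ := D.exists_nt_mult hsimple hY
  have hmY1 : m Y = 1 := by
    have h := hmult ⟨t₀, ht₀⟩ ht₀n
    rw [D.mult_res_eq_sum hW hm ht₀, Finset.sum_eq_single Y
      (fun Z _ hZ => by rw [hmZ Z hZ, zero_mul]) (by simp)] at h
    exact Nat.eq_of_mul_eq_mul_right (Nat.pos_of_ne_zero ht₀m) (h.trans (one_mul _).symm)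
  have hWW : Cfsg.classInner (fun x => χ.1 x * conj (χ.1 x)) (fun x => X.1 x * conj (X.1 x)) =
      1 := by
    rw [← classInner_mul_conj, H26.classInner_eq_sum _ _ (H26.isClassFunction_of_isCharacter hW),
      Finset.sum_eq_single Y (fun Z _ hZ => by simp [hm Z, hmZ Z hZ]) (by simp), hm Y, hmY1]
    simp
  -- all constituents agree on the kernel of the projection
  let ω : D.C → ℂ := t₀
  have hagree : ∀ t, Cfsg.IsIrrCharacter D.C t → D.NT t → D.mult (D.res Y.1) t ≠ 0 →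
      ∀ c, D.π c = 1 → t c = ω c := by
    have aux : ∀ t₁ t₂, Cfsg.IsIrrCharacter D.C t₁ → D.NT t₁ → D.mult (D.res Y.1) t₁ ≠ 0 →
        Cfsg.IsIrrCharacter D.C t₂ → D.NT t₂ → D.mult (D.res Y.1) t₂ ≠ 0 → ¬ D.Orb t₁ t₂ →
        ∀ c, D.π c = 1 → t₁ c = t₂ c := by
      intro t₁ t₂ h1 h1n h1m h2 h2n h2m hno c hc
      obtain ⟨η₁, hη₁⟩ := D.exists_over h1
      obtain ⟨η₂, hη₂⟩ := D.exists_over h2
      have hν₁ := D.over_tw_div hη₁ μ₀
      have hν₂ := D.over_tw_div hη₂ μ₀
      have hi₁ := D.isIrr_tw h1 (μ₀ * η₁⁻¹)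
      have hi₂ := D.isIrr_tw h2 (μ₀ * η₂⁻¹)
      have hn₁ := D.nt_of_over (D.irr_ne_zero hi₁) hν₁ h0
      have hn₂ := D.nt_of_over (D.irr_ne_zero hi₂) hν₂ h0
      have hz₁ : D.mult (D.res Y.1) (D.tw t₁ (μ₀ * η₁⁻¹)) = 0 :=
        by_contra fun h => hf0 ⟨h0, _, hi₁, hν₁, h⟩
      have hz₂ : D.mult (D.res Y.1) (D.tw t₂ (μ₀ * η₂⁻¹)) = 0 :=
        by_contra fun h => hf0 ⟨h0, _, hi₂, hν₂, h⟩
      have hYc := H26.irr_isClassFunction Y
      have horb : D.Orb (D.tw t₁ (μ₀ * η₁⁻¹)) (D.tw t₂ (μ₀ * η₂⁻¹)) := by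
        by_contra hno'
        exact D.false_of_orthogonal h1 h1n hn₁ (fun h => h1m ((D.mult_orb hYc h).symm.trans hz₁))
          h2 h2n hn₂ (fun h => h2m ((D.mult_orb hYc h).symm.trans hz₂)) hno hno'
          (fun h => h1m ((D.mult_orb hYc h).symm.trans hz₂))
          (fun h => h2m ((D.mult_orb hYc h).trans hz₁)) Y
          (hone ⟨t₁, h1⟩ h1n h1m).1 hz₁ (hone ⟨t₂, h2⟩ h2n h2m).1 hz₂
      obtain ⟨g, hg⟩ := horb
      have hfix : μ₀.comp (D.conjP' g) = μ₀ :=
        D.over_unique (D.irr_ne_zero (D.isIrr_cj g hi₁)) (D.over_cj g hν₁) (hg ▸ hν₂)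
      rw [D.cj_of_mem (H26.irr_isClassFunction ⟨_, hi₁⟩) g (D.mem_C_of_fixed h0 g hfix)] at hg
      have h := congrFun hg c
      simpa [tw, hc] using h
    intro t ht htn htm c hc
    by_cases hno : D.Orb t t₀
    · have hex : ∃ t₂, Cfsg.IsIrrCharacter D.C t₂ ∧ D.NT t₂ ∧ D.mult (D.res Y.1) t₂ ≠ 0 ∧
          ¬ D.Orb t₀ t₂ := by
        by_contra hc'
        refine hbad ⟨t₀, D.good_of_mult (H26.irr_isCharacter Y) ht₀ ht₀n
          (hone ⟨t₀, ht₀⟩ ht₀n ht₀m).1 fun t₂ h2 h2n h2m => ?_⟩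
        by_contra h
        exact hc' ⟨t₂, h2, h2n, h2m, h⟩
      obtain ⟨t₂, h2, h2n, h2m, h⟩ := hex
      exact (aux t t₂ ht htn htm h2 h2n h2m (fun h' => h (D.orb_trans (D.orb_symm hno) h')) c hc).trans
        (aux t₀ t₂ ht₀ ht₀n ht₀m h2 h2n h2m h c hc).symm
    · exact aux t t₀ ht htn htm ht₀ ht₀n ht₀m hno c hc
  have hNe : D.e ≤ N := by
    have hpos : N ≠ 0 := by
      intro h
      have h' := D.ncard_supp_le_card (R := D.res Y.1)
      have hT := D.card_le_ntDeg (R := D.res Y.1)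
      rw [hYdeg, h] at hT
      have : (⟨t₀, ht₀⟩ : Cfsg.IrrCharacter D.C) ∈ Finset.univ.filter
          fun t : Cfsg.IrrCharacter D.C => D.NT t.1 ∧ D.mult (D.res Y.1) t.1 ≠ 0 :=
        Finset.mem_filter.mpr ⟨Finset.mem_univ _, ht₀n, ht₀m⟩
      exact absurd (Finset.card_pos.mpr ⟨_, this⟩) (by omega)
    exact Nat.le_of_dvd (Nat.pos_of_ne_zero hpos) ⟨_, hNeq⟩
  -- on the kernel of the projection the product takes its degree
  have hVd : ∀ c : D.C, D.π c = 1 → χ.1 c * conj (χ.1 c) = (d : ℂ) * d := by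
    intro c hc
    have hexp := congrFun (D.nt_eq_sum hR) c
    rw [nt, Pi.sub_apply, hK, Finset.sum_apply] at hexp
    have hterm : ∀ t : Cfsg.IrrCharacter D.C, ((if D.NT t.1 then
        (D.mult (D.res fun x => χ.1 x * conj (X.1 x)) t.1 : ℂ) else 0) • t.1) c =
        ((if D.NT t.1 then D.mult (D.res fun x => χ.1 x * conj (X.1 x)) t.1 * Cfsg.charDegree t.1
          else 0 : ℕ) : ℂ) * ω c := by
      intro t
      by_cases ht : D.NT t.1
      · simp only [if_pos ht, Pi.smul_apply, smul_eq_mul, hmult t ht]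
        by_cases htm : D.mult (D.res Y.1) t.1 = 0
        · simp [htm]
        · rw [(hone t ht htm).2, mul_one, hagree t.1 t.2 ht htm c hc]
      · simp [if_neg ht]
    rw [Finset.sum_congr rfl fun t _ => hterm t, ← Finset.sum_mul, ← Nat.cast_sum] at hexp
    change D.res (fun x => χ.1 x * conj (X.1 x)) c - _ = (N : ℂ) * ω c at hexp
    dsimp only at hexp
    rw [show D.res (fun x => χ.1 x * conj (X.1 x)) c = χ.1 c * conj (X.1 c) from rfl, hV c hc,
      Complex.mul_conj, Complex.mul_conj] at hexp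
    have hω : ‖ω c‖ = 1 := by
      obtain ⟨f, hf⟩ := H26.exists_hom_of_isCharacter_one (H26.isCharacter_of_irr ht₀) (by
        rw [char_one_eq_charDegree (H26.isCharacter_of_irr ht₀), (hone ⟨t₀, ht₀⟩ ht₀n ht₀m).2,
          Nat.cast_one])
      show ‖t₀ c‖ = 1
      rw [← hf c]
      exact norm_homValue f c
    rw [← Complex.ofReal_sub] at hexp
    have hnorm := congrArg norm hexp
    rw [Complex.norm_real, norm_mul, hω, mul_one, Complex.norm_natCast, Real.norm_eq_abs] at hnorm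
    have hAch := D.isCharacter_avg (D.isCharacter_res (H26.irr_isCharacter χ))
    have hadeg : Cfsg.charDegree (D.avg (D.res χ.1)) = a := by
      have h := char_one_eq_charDegree hAch
      rw [ha] at h
      exact_mod_cast h.symm
    have hnA := norm_le_charDegree hAch c
    rw [hadeg] at hnA
    have hsmall : (a : ℝ) * a < N := by
      have : a * a < N := by omega
      exact_mod_cast this
    have hx : Complex.normSq (χ.1 c) - Complex.normSq (D.avg (D.res χ.1) c) = N := by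
      rcases abs_choice (Complex.normSq (χ.1 c) - Complex.normSq (D.avg (D.res χ.1) c)) with h | h
      · rw [h] at hnorm; exact hnorm
      · rw [h, Complex.normSq_eq_norm_sq (D.avg (D.res χ.1) c)] at hnorm
        nlinarith [Complex.normSq_nonneg (χ.1 c), norm_nonneg (D.avg (D.res χ.1) c)]
    have hntle : ‖D.nt (D.res χ.1) c‖ ≤ (d : ℝ) - a := by
      have h := norm_le_charDegree (D.isCharacter_nt (D.isCharacter_res (H26.irr_isCharacter χ))) c
      have h1 := char_one_eq_charDegree (D.isCharacter_nt (D.isCharacter_res (H26.irr_isCharacter χ)))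
      rw [nt, Pi.sub_apply, ha, show D.res χ.1 1 = χ.1 1 from rfl, hd] at h1
      have h2 : ((Cfsg.charDegree (D.nt (D.res χ.1)) : ℝ)) = (d : ℝ) - a := by
        have := congrArg Complex.re h1
        simpa [nt] using this.symm
      exact h.trans h2.le
    have htri : ‖χ.1 c‖ ≤ ‖D.avg (D.res χ.1) c‖ + ((d : ℝ) - a) := by
      refine le_trans (le_of_eq (congrArg norm ?_)) ((norm_add_le _ _).trans (by gcongr))
      simp [nt, res]
    have hN' : (N : ℝ) + a * a = d * d := by exact_mod_cast hN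
    rw [Complex.normSq_eq_norm_sq, Complex.normSq_eq_norm_sq] at hx
    have hda'' : (a : ℝ) < d := by
      have : a * a < d * d := by omega
      exact_mod_cast Nat.mul_self_lt_mul_self_iff.mp this
    have hsq := mul_le_mul htri htri (norm_nonneg _) (le_trans (norm_nonneg _) htri)
    have hge : (a : ℝ) ≤ ‖D.avg (D.res χ.1) c‖ := by nlinarith
    have heq : ‖D.avg (D.res χ.1) c‖ = a := le_antisymm hnA hge
    rw [heq] at hx
    rw [Complex.mul_conj, Complex.normSq_eq_norm_sq, show ‖χ.1 c‖ ^ 2 = (d : ℝ) * d by nlinarith]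
    push_cast
    rfl
  -- constituents of both squares lie over the free orbit
  have hω1 : ∀ c : D.C, D.π c = 1 → ω c = 1 := by
    intro c hc
    have hR1 : D.res (fun x => χ.1 x * conj (X.1 x)) c =
        D.res (fun x => χ.1 x * conj (X.1 x)) 1 := by
      simp only [res, OneMemClass.coe_one, hV c hc, hVd c hc, hd, hX1, Complex.conj_natCast]
    have hne' : Cfsg.classInner (D.res fun x => χ.1 x * conj (X.1 x)) t₀ ≠ 0 := by
      rw [← D.mult_eq hR ht₀, hmult ⟨t₀, ht₀⟩ ht₀n]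
      exact_mod_cast ht₀m
    show t₀ c = 1
    have hh : t₀ c = t₀ 1 := constituent_apply_eq_one hR hR1 ⟨t₀, ht₀⟩ hne'
    rw [hh,
      char_one_eq_charDegree (H26.isCharacter_of_irr ht₀), (hone ⟨t₀, ht₀⟩ ht₀n ht₀m).2,
      Nat.cast_one]
  have hY1 : ∀ η : D.P →* ℂˣ, η ≠ 1 → η ∉ D.orbP μ₀ →
      D.mult (D.res Y.1) (fun c => (η (D.π c) : ℂ)) = 1 := by
    intro η hη hno
    obtain ⟨-, t, ht, htη, htm⟩ := hall η hη hno
    have htn := D.nt_of_over (D.irr_ne_zero ht) htη hη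
    have hdeg := (hone ⟨t, ht⟩ htn htm).2
    rw [← D.eq_hom_of_trivial ht htη fun c hc => by
      rw [hagree t ht htn htm c hc, hω1 c hc, char_one_eq_charDegree (H26.isCharacter_of_irr ht),
        hdeg, Nat.cast_one]]
    exact (hone ⟨t, ht⟩ htn htm).1
  obtain ⟨η₁, hη₁, hη₁1, hm₁⟩ := D.exists_hom_in_orbit hs hd hd2 ha hda hVd
    (fun Z hZ hZW => hgood' Z hZ (Or.inl hZW)) hbad h0 hf0 hY1
  obtain ⟨η₂, hη₂, -, hm₂⟩ := D.exists_hom_in_orbit hs' hX1 hd2 (hA ▸ ha) hda'
    (fun c hc => by rw [hV c hc]; exact hVd c hc)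
    (fun Z hZ hZW => hgood' Z hZ (Or.inr hZW)) hbad h0 hf0 hY1
  have hW₁ := isCharacter_mul_conj χ χ
  have hW₂ := isCharacter_mul_conj X X
  have hq : D.e + 1 < Nat.card D.P := by omega
  have hzero := D.classInner_nt_res hq hW₁ hW₂ hgood'
  have honeone : ∀ Z : Cfsg.IrrCharacter G,
      Cfsg.classInner (fun x => Z.1 x * conj (Z.1 x)) (H26.oneIrr G).1 = 1 := fun Z => by
    rw [show (H26.oneIrr G).1 = fun _ => (1 : ℂ) from rfl, classInner_mul_conj_one,
      H26.classInner_irr, if_pos rfl]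
  rw [hWW, honeone χ, honeone X, map_one, mul_one, sub_self, mul_zero] at hzero
  rw [D.nt_eq_sum (D.isCharacter_res hW₂), H26.classInner_sum_right] at hzero
  have hterm : ∀ t : Cfsg.IrrCharacter D.C,
      Cfsg.classInner (D.nt (D.res fun x => χ.1 x * conj (χ.1 x)))
        ((if D.NT t.1 then (D.mult (D.res fun x => X.1 x * conj (X.1 x)) t.1 : ℂ) else 0) • t.1) =
      ((if D.NT t.1 then D.mult (D.res fun x => X.1 x * conj (X.1 x)) t.1 *
        D.mult (D.res fun x => χ.1 x * conj (χ.1 x)) t.1 else 0 : ℕ) : ℂ) := by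
    intro t
    rw [H26.classInner_smul_right, D.classInner_nt_irr _ t.2,
      ← D.mult_eq (D.isCharacter_res hW₁) t.2]
    split_ifs <;> simp
  rw [Finset.sum_congr rfl fun t _ => hterm t, ← Nat.cast_sum, Nat.cast_eq_zero,
    Finset.sum_eq_zero_iff] at hzero
  have ht₁ : Cfsg.IsIrrCharacter D.C fun c => (η₁ (D.π c) : ℂ) :=
    H26.isIrrCharacter_hom (η₁.comp D.π)
  have ho₁ : D.Over (fun c => (η₁ (D.π c) : ℂ)) η₁ := fun x c => by simp [D.π_coe]
  have h := hzero ⟨_, ht₁⟩ (Finset.mem_univ _)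
  simp only [if_pos (D.nt_of_over (D.irr_ne_zero ht₁) ho₁ hη₁1), Nat.mul_eq_zero] at h
  rcases h with h | h
  · refine hm₂ ?_
    obtain ⟨g, hg⟩ : η₂ ∈ D.orbP η₁ := by rw [D.orbP_eq_of_mem hη₁]; exact hη₂
    have horb : D.Orb (fun c => (η₁ (D.π c) : ℂ)) (fun c => (η₂ (D.π c) : ℂ)) := by
      refine ⟨g, funext fun c => ?_⟩
      rw [cj, π_conjHom, ← hg]
      rfl
    rw [D.mult_orb (H26.isClassFunction_of_isCharacter hW₂) horb, h]
  · exact hm₁ h

end TIData

end Cfsg.Agent.H25
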