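import Mathlib
import Cfsg.Agent.H25.TIEquality

/-!
# Irreducible characters of small degree are linear
-/

set_option autoImplicit false

open scoped ComplexConjugate

namespace Cfsg.Agent.H25

universe u

namespace TIData

variable {G : Type u} [Group G] (D : TIData G)
variable [Fintype G] [Fintype D.P] [Fintype D.C] [Fintype D.N]

/-- A nonprincipal irreducible character of small degree is linear and forces `N = C`. -/
theorem small_degree
    (hsimple : ∀ Y : Cfsg.IrrCharacter G, D.nt (D.res Y.1) = 0 → Y = H26.oneIrr G)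
    (χ : Cfsg.IrrCharacter G) (hχ : χ ≠ H26.oneIrr G) {d : ℕ} (hd : χ.1 1 = (d : ℂ))
    (hdq : d * d + 1 < Nat.card D.P) : d = 1 ∧ D.e = 1 := by
  classical
  have hRc : Cfsg.IsCharacter D.C (D.res χ.1) := D.isCharacter_res (H26.irr_isCharacter χ)
  have hA := D.isCharacter_avg hRc
  obtain ⟨a, ha⟩ := H26.exists_nat_char_one hA
  have haN : a + D.ntDeg (D.res χ.1) = d := by
    have h := D.nt_one hRc
    rw [nt, Pi.sub_apply, ha, show D.res χ.1 1 = χ.1 1 from rfl, hd, sub_eq_iff_eq_add] at h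
    rw [Nat.add_comm]
    exact_mod_cast h.symm
  obtain ⟨t, ht, htn, htm⟩ := D.exists_nt_mult hsimple hχ
  obtain ⟨μt, hμt⟩ := D.exists_over ht
  have hμt1 := D.over_ne_one htn hμt
  have hmem : μt ∈ D.supp (D.res χ.1) := ⟨hμt1, t, ht, hμt, htm⟩
  haveI := D.finite_homs
  have he : D.e ≤ D.ntDeg (D.res χ.1) := by
    rw [← D.ncard_orbP hμt1]
    exact (Set.ncard_le_ncard (D.orbP_subset_supp (H26.irr_isClassFunction χ) hmem)
      (Set.toFinite _)).trans D.ncard_supp_le
  have he1 := D.one_le_e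
  by_cases hd1 : d ≤ 1
  · omega
  exfalso
  have hd2 : 2 ≤ d := by omega
  have h2d : 2 * d ≤ d * d := Nat.mul_le_mul_right d hd2
  have hq : D.e + 1 < Nat.card D.P := by omega
  obtain ⟨s, hs⟩ := D.good_of_small hsimple hχ (by
    have := D.ncard_supp_le (R := D.res χ.1)
    omega)
  have hNs : D.ntDeg (D.res χ.1) = D.e * Cfsg.charDegree s := by
    have h := D.nt_one hRc
    rw [hs.2.2, D.orbSum_one hs.1] at h
    exact_mod_cast h.symm
  have hda : d = a + D.e * Cfsg.charDegree s := by omega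
  have hf : 1 ≤ Cfsg.charDegree s := Nat.one_le_iff_ne_zero.mpr fun h => D.irr_ne_zero hs.1
    (by rw [char_one_eq_charDegree (H26.isCharacter_of_irr hs.1), h, Nat.cast_zero])
  -- the companion character
  obtain ⟨μ, hμ⟩ := D.exists_over hs.1
  have hμ1 := D.over_ne_one hs.2.1 hμ
  obtain ⟨ξ, hξ, hfree⟩ := D.exists_free hq hμ1
  obtain ⟨ν, hν⟩ : ∃ ν, ν = ξ * μ⁻¹ := ⟨_, rfl⟩
  have hov : D.Over (D.tw s ν) ξ := hν ▸ D.over_tw_div hμ ξ
  have hs'i := D.isIrr_tw hs.1 ν
  have hs'n := D.nt_of_over (D.irr_ne_zero hs'i) hov hξ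
  have hno : ¬ D.Orb s (D.tw s ν) := fun hh => by
    obtain ⟨g, hg⟩ := D.over_of_orb hs.1 hμ hov hh
    exact hfree g hg
  obtain ⟨α, X, hαX, heq, hdeg⟩ := D.exists_diff_eq hs.1 hs.2.1 hs'n hno
  have hα : α = χ := by
    have h := D.classInner_diff_irr (H26.irr_isCharacter χ) hs.1 ν
    rw [D.classInner_of_diff_eq heq, Good.mult D (H26.irr_isCharacter χ) hs hs.1 hs.2.1,
      if_pos (D.orb_refl s), Good.mult D (H26.irr_isCharacter χ) hs hs'i hs'n, if_neg hno] at h
    by_contra hne
    rw [if_neg hne] at h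
    split_ifs at h <;> norm_num at h
  subst hα
  have hXres : D.res X.1 = D.avg (D.res α.1) + D.orbSum (D.tw s ν) := by
    funext c
    have h := congrFun (D.res_diff s ν) c
    have h2 := congrFun hs.2.2 c
    rw [heq] at h
    simp only [res, nt, Pi.sub_apply] at h h2
    simp only [res, Pi.add_apply]
    linear_combination h2 - h
  have hXA : D.avg (D.res X.1) = D.avg (D.res α.1) := by
    rw [hXres, D.avg_add, D.avg_avg, D.avg_orbSum hs'i hs'n, add_zero]
  have hs' : D.Good X.1 (D.tw s ν) := by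
    refine ⟨hs'i, hs'n, ?_⟩
    rw [nt, hXA, hXres, add_sub_cancel_left]
  have htw1 : Cfsg.charDegree (D.tw s ν) = Cfsg.charDegree s := by
    simp [Cfsg.charDegree, tw]
  have hV : ∀ c : D.C, D.π c = 1 → X.1 c = α.1 c := by
    intro c hc
    have h := congrFun (D.res_diff s ν) c
    rw [heq] at h
    simp only [res, Pi.sub_apply, orbSum_apply] at h
    have h0 : ∀ g : D.N, D.cj g (D.tw s ν) c = D.cj g s c := fun g => by
      simp [cj, tw, D.π_conjHom_one g hc]
    rw [Finset.sum_congr rfl fun g _ => h0 g, sub_self] at h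
    exact (sub_eq_zero.mp h).symm
  have hX1 : X.1 1 = (d : ℂ) := by rw [← hdeg, hd]
  have hsplit : D.res α.1 = D.avg (D.res α.1) + D.orbSum s := by
    rw [← hs.2.2, nt, add_sub_cancel]
  -- averages of the three products
  have hAo := D.over_avg (D.res α.1)
  have hS0 := D.avg_orbSum hs.1 hs.2.1
  have hS0' := D.avg_orbSum hs'i hs'n
  have hK12 : D.avg (D.res fun x => α.1 x * conj (X.1 x)) =
      fun c => D.avg (D.res α.1) c * conj (D.avg (D.res α.1) c) := by
    have he : (D.res fun x => α.1 x * conj (X.1 x)) = fun c =>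
        (D.avg (D.res α.1) c + D.orbSum s c) *
          conj (D.avg (D.res α.1) c + D.orbSum (D.tw s ν) c) := by
      funext c
      show D.res α.1 c * conj (D.res X.1 c) = _
      rw [congrFun hsplit c, congrFun hXres c, Pi.add_apply, Pi.add_apply]
    rw [he, D.avg_mul_conj hAo hS0 hS0', D.avg_orb_conj_zero hμ hov hfree, add_zero]
  have hK11 : D.avg (D.res fun x => α.1 x * conj (α.1 x)) = fun c =>
      ((Complex.normSq (D.avg (D.res α.1) c) + D.orbSq s c : ℝ) : ℂ) := by
    have he : (D.res fun x => α.1 x * conj (α.1 x)) = fun c =>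
        (D.avg (D.res α.1) c + D.orbSum s c) *
          conj (D.avg (D.res α.1) c + D.orbSum s c) := by
      funext c
      show D.res α.1 c * conj (D.res α.1 c) = _
      rw [congrFun hsplit c, Pi.add_apply]
    rw [he, D.avg_mul_conj hAo hS0 hS0, D.avg_orb_conj_self hs.1 hs.2.1]
    funext c
    simp [Complex.mul_conj]
  have hK22 : D.avg (D.res fun x => X.1 x * conj (X.1 x)) = fun c =>
      ((Complex.normSq (D.avg (D.res α.1) c) + D.orbSq s c : ℝ) : ℂ) := by
    have he : (D.res fun x => X.1 x * conj (X.1 x)) = fun c =>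
        (D.avg (D.res α.1) c + D.orbSum (D.tw s ν) c) *
          conj (D.avg (D.res α.1) c + D.orbSum (D.tw s ν) c) := by
      funext c
      show D.res X.1 c * conj (D.res X.1 c) = _
      rw [congrFun hXres c, Pi.add_apply]
    rw [he, D.avg_mul_conj hAo hS0' hS0', D.avg_orb_conj_self hs'i hs'n, D.orbSq_tw]
    funext c
    simp [Complex.mul_conj]
  have hgood' : ∀ Y : Cfsg.IrrCharacter G, Y ≠ H26.oneIrr G →
      (Cfsg.classInner (fun x => α.1 x * conj (α.1 x)) Y.1 ≠ 0 ∨
        Cfsg.classInner (fun x => X.1 x * conj (X.1 x)) Y.1 ≠ 0) → ∃ t, D.Good Y.1 t := by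
    intro Y hY hYW
    have key : ∀ Z : Cfsg.IrrCharacter G, Z.1 1 = (d : ℂ) →
        (D.avg (D.res fun x => Z.1 x * conj (Z.1 x)) = fun c =>
          ((Complex.normSq (D.avg (D.res α.1) c) + D.orbSq s c : ℝ) : ℂ)) →
        Cfsg.classInner (fun x => Z.1 x * conj (Z.1 x)) Y.1 ≠ 0 → ∃ t, D.Good Y.1 t := by
      intro Z hZ hK hne
      refine D.good_of_small hsimple hY ?_
      have h1 := (D.ncard_supp_le (R := D.res Y.1)).trans
        (D.ntDeg_le_of_constituent (isCharacter_mul_conj Z Z) hne)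
      have h2 := D.nt_one (D.isCharacter_res (isCharacter_mul_conj Z Z))
      rw [nt, Pi.sub_apply, hK] at h2
      simp only [res, OneMemClass.coe_one, hZ, Complex.conj_natCast] at h2
      change D.avg (D.res α.1) 1 = _ at ha
      rw [ha, D.orbSq_one hs.1, Complex.normSq_natCast] at h2
      have h3 : D.ntDeg (D.res fun x => Z.1 x * conj (Z.1 x)) +
          (a * a + D.e * (Cfsg.charDegree s * Cfsg.charDegree s)) = d * d := by
        apply Nat.cast_injective (R := ℂ)
        push_cast at h2 ⊢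
        linear_combination -h2
      have h4 : D.e ≤ D.e * (Cfsg.charDegree s * Cfsg.charDegree s) :=
        Nat.le_mul_of_pos_right _ (Nat.mul_pos hf hf)
      omega
    rcases hYW with h | h
    · exact key α hd hK11 h
    · exact key X hX1 hK22 h
  have hgood12 : ∀ Y : Cfsg.IrrCharacter G, Y ≠ H26.oneIrr G →
      Cfsg.classInner (fun x => α.1 x * conj (X.1 x)) Y.1 ≠ 0 → ∃ t, D.Good Y.1 t :=
    fun Y hY hYW => D.good_of_product hsimple hαX hs hs' hXA hV hd hd2 ha hda
      (htw1.symm ▸ hda) hdq hK12 hgood' hY hYW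
  -- the norm identity
  have hW12 := isCharacter_mul_conj α X
  have hW11 := isCharacter_mul_conj α α
  have hW22 := isCharacter_mul_conj X X
  have e1 := D.classInner_nt_res hq hW12 hW12 fun Y hY h => hgood12 Y hY (h.elim id id)
  have e2 := D.classInner_nt_res hq hW11 hW22 hgood'
  rw [show (H26.oneIrr G).1 = fun _ => (1 : ℂ) from rfl, classInner_mul_conj_one,
    H26.classInner_irr, if_neg hαX, zero_mul, sub_zero, D.classInner_nt_nt, hK12] at e1
  rw [show (H26.oneIrr G).1 = fun _ => (1 : ℂ) from rfl, classInner_mul_conj_one,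
    classInner_mul_conj_one, H26.classInner_irr, H26.classInner_irr, if_pos rfl, if_pos rfl,
    map_one, mul_one, D.classInner_nt_nt, hK11, hK22] at e2
  rw [classInner_mul_conj α.1 X.1] at e1
  have hRR : Cfsg.classInner (D.res fun x => α.1 x * conj (X.1 x))
      (D.res fun x => α.1 x * conj (X.1 x)) =
      Cfsg.classInner (D.res fun x => α.1 x * conj (α.1 x))
        (D.res fun x => X.1 x * conj (X.1 x)) :=
    classInner_mul_conj (D.res α.1) (D.res X.1)
  have hKr : (fun c => D.avg (D.res α.1) c * conj (D.avg (D.res α.1) c)) =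
      fun c => ((Complex.normSq (D.avg (D.res α.1) c) : ℝ) : ℂ) :=
    funext fun c => Complex.mul_conj _
  rw [hKr, hRR, classInner_ofReal] at e1
  rw [classInner_ofReal] at e2
  have e3 : (((Nat.card D.C : ℝ)⁻¹ * ∑ c : D.C,
      (Complex.normSq (D.avg (D.res α.1) c) + D.orbSq s c) *
        (Complex.normSq (D.avg (D.res α.1) c) + D.orbSq s c) : ℝ) : ℂ) -
      (((Nat.card D.C : ℝ)⁻¹ * ∑ c : D.C, Complex.normSq (D.avg (D.res α.1) c) *
        Complex.normSq (D.avg (D.res α.1) c) : ℝ) : ℂ) = ((D.e : ℝ) : ℂ) := by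
    rw [Complex.ofReal_natCast]
    linear_combination e1 - e2
  rw [← Complex.ofReal_sub, Complex.ofReal_inj, ← mul_sub, ← Finset.sum_sub_distrib] at e3
  have hnC : (0 : ℝ) < Nat.card D.C := Nat.cast_pos.mpr Nat.card_pos
  rw [inv_mul_eq_iff_eq_mul₀ hnC.ne'] at e3
  have hcs : (∑ c : D.C, D.orbSq s c) ^ 2 ≤ (Nat.card D.C : ℝ) * ∑ c : D.C, D.orbSq s c ^ 2 := by
    have := sq_sum_le_card_mul_sum_sq (s := (Finset.univ : Finset D.C)) (f := D.orbSq s)
    rwa [Finset.card_univ, ← Nat.card_eq_fintype_card] at this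
  have hle : ∑ c : D.C, D.orbSq s c ^ 2 ≤ (Nat.card D.C : ℝ) * D.e := by
    rw [← e3]
    refine Finset.sum_le_sum fun c _ => ?_
    nlinarith [D.orbSq_nonneg s c, Complex.normSq_nonneg (D.avg (D.res α.1) c)]
  rw [D.sum_orbSq hs.1] at hcs
  have he1' : D.e = 1 := by
    refine le_antisymm ?_ he1
    have h1 : (D.e : ℝ) * D.e * ((Nat.card D.C : ℝ) * Nat.card D.C) ≤
        (D.e : ℝ) * ((Nat.card D.C : ℝ) * Nat.card D.C) := by nlinarith
    have h2 : (D.e : ℝ) * D.e ≤ D.e := le_of_mul_le_mul_right h1 (mul_pos hnC hnC)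
    have h3 : D.e * D.e ≤ D.e * 1 := by rw [mul_one]; exact_mod_cast h2
    exact Nat.le_of_mul_le_mul_left h3 (by omega)
  have hsum0 : ∀ c : D.C, D.orbSq s c = 1 ∧
      Complex.normSq (D.avg (D.res α.1) c) * D.orbSq s c = 0 := by
    have hKL : ∀ c : D.C, 0 ≤ Complex.normSq (D.avg (D.res α.1) c) * D.orbSq s c := fun c =>
      mul_nonneg (Complex.normSq_nonneg _) (D.orbSq_nonneg s c)
    have htot : ∑ c : D.C, ((D.orbSq s c - 1) ^ 2 +
        2 * (Complex.normSq (D.avg (D.res α.1) c) * D.orbSq s c)) = 0 := by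
      have : ∀ c : D.C, (D.orbSq s c - 1) ^ 2 +
          2 * (Complex.normSq (D.avg (D.res α.1) c) * D.orbSq s c) =
          ((Complex.normSq (D.avg (D.res α.1) c) + D.orbSq s c) *
            (Complex.normSq (D.avg (D.res α.1) c) + D.orbSq s c) -
            Complex.normSq (D.avg (D.res α.1) c) * Complex.normSq (D.avg (D.res α.1) c)) +
            (1 - 2 * D.orbSq s c) := fun c => by ring
      rw [Finset.sum_congr rfl fun c _ => this c, Finset.sum_add_distrib, e3,
        Finset.sum_sub_distrib, ← Finset.mul_sum, D.sum_orbSq hs.1, he1', Finset.sum_const,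
        Finset.card_univ, ← Nat.card_eq_fintype_card, nsmul_eq_mul]
      push_cast
      ring
    intro c
    have h0 := (Finset.sum_eq_zero_iff_of_nonneg fun c _ =>
      add_nonneg (sq_nonneg _) (mul_nonneg zero_le_two (hKL c))).mp htot c (Finset.mem_univ _)
    have h1 := (add_eq_zero_iff_of_nonneg (sq_nonneg _) (mul_nonneg zero_le_two (hKL c))).mp h0
    exact ⟨sub_eq_zero.mp (pow_eq_zero_iff two_ne_zero |>.mp h1.1), by linarith [h1.2]⟩
  obtain ⟨hL1, hKL1⟩ := hsum0 1
  rw [hL1, mul_one, ha, Complex.normSq_natCast] at hKL1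
  rw [D.orbSq_one hs.1, he1', Nat.cast_one, one_mul] at hL1
  have ha0 : a = 0 := by exact_mod_cast mul_self_eq_zero.mp hKL1
  have hf1 : Cfsg.charDegree s * Cfsg.charDegree s = 1 := by exact_mod_cast hL1
  rw [ha0, he1', Nat.eq_one_of_mul_eq_one_right hf1] at hda
  omega

end TIData

end Cfsg.Agent.H25
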