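import Mathlib
import Cfsg.Agent.H25.TIMain

/-!
# Sylow subgroups with uniform centralizers and characters of small degree
-/

set_option autoImplicit false

open scoped ComplexConjugate

namespace Cfsg.Agent.H25

universe u

variable {G : Type u} [Group G]

/-- A Sylow subgroup with uniform centralizers gives a `TIData`. -/
theorem exists_tiData [Finite G] (p : ℕ) [Fact p.Prime] (P : Sylow p G)
    (hq : 1 < Nat.card P)
    (hstar : ∀ x ∈ (P : Subgroup G), x ≠ 1 →
      Subgroup.centralizer ({x} : Set G) = Subgroup.centralizer ((P : Subgroup G) : Set G)) :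
    ∃ D : TIData G, D.P = (P : Subgroup G) ∧
      D.C = Subgroup.centralizer ((P : Subgroup G) : Set G) ∧
      D.N = Subgroup.normalizer ((P : Subgroup G) : Set G) := by
  obtain ⟨Q, hQ⟩ : ∃ Q : Subgroup G, Q = (P : Subgroup G) := ⟨_, rfl⟩
  obtain ⟨C, hC⟩ : ∃ C : Subgroup G, C = Subgroup.centralizer (Q : Set G) := ⟨_, rfl⟩
  obtain ⟨N, hN⟩ : ∃ N : Subgroup G, N = Subgroup.normalizer (Q : Set G) := ⟨_, rfl⟩
  rw [← hQ] at hstar
  rw [← hC] at hstar
  have hcomm : ∀ x ∈ Q, ∀ y ∈ Q, x * y = y * x := by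
    intro x hx y hy
    by_cases h1 : x = 1
    · simp [h1]
    · have : x ∈ Subgroup.centralizer ({x} : Set G) := by
        simp [Subgroup.mem_centralizer_iff]
      rw [hstar x hx h1, hC] at this
      exact (Subgroup.mem_centralizer_iff.mp this y hy).symm
  have hPC : Q ≤ C := by
    intro x hx
    rw [hC]
    exact Subgroup.mem_centralizer_iff.mpr fun y hy => hcomm y hy x hx
  have hcent : ∀ x ∈ Q, ∀ c ∈ C, x * c = c * x := by
    intro x hx c hc
    rw [hC] at hc
    exact Subgroup.mem_centralizer_iff.mp hc x hx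
  have hNmem : ∀ g, g ∈ N ↔ ∀ h, h ∈ Q ↔ g * h * g⁻¹ ∈ Q := fun g => by
    rw [hN]; exact Subgroup.mem_normalizer_iff
  have hconjP : ∀ g ∈ N, ∀ x ∈ Q, g * x * g⁻¹ ∈ Q := fun g hg x hx => ((hNmem g).mp hg x).mp hx
  have hconjC : ∀ g ∈ N, ∀ c ∈ C, g * c * g⁻¹ ∈ C := by
    intro g hg c hc
    rw [hC]
    refine Subgroup.mem_centralizer_iff.mpr fun x hx => ?_
    have h := hcent _ (hconjP g⁻¹ (inv_mem hg) x hx) c hc
    calc x * (g * c * g⁻¹) = g * (g⁻¹ * x * g⁻¹⁻¹ * c) * g⁻¹ := by group
      _ = g * (c * (g⁻¹ * x * g⁻¹⁻¹)) * g⁻¹ := by rw [h]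
      _ = g * c * g⁻¹ * x := by group
  have hCN : C ≤ N := by
    intro c hc
    refine (hNmem c).mpr fun h => ?_
    constructor
    · intro hh
      rwa [← hcent h hh c hc, mul_inv_cancel_right]
    · intro hh
      have hk := hcent _ hh c hc
      have : h = c⁻¹ * (c * h * c⁻¹) * c := by group
      rwa [this, mul_assoc, hk, inv_mul_cancel_left]
  -- the projection is a power map
  let H : Subgroup C := Q.subgroupOf C
  have hHc : ∀ (z : C), z ∈ H → ∀ c : C, z * c = c * z := fun z hz c =>
    Subtype.ext (hcent z hz c c.2)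
  have hcop : H.index.Coprime (Nat.card Q) := by
    have h1 : H.index ∣ (P : Subgroup G).index := hQ ▸ Subgroup.relIndex_dvd_index_of_le hPC
    refine Nat.Coprime.coprime_dvd_left h1 ?_
    rw [hQ, Nat.coprime_comm]
    obtain ⟨n, hn⟩ := P.isPGroup'.exists_card_eq
    rw [hn]
    exact Nat.Coprime.pow_left _ ((Fact.out : p.Prime).coprime_iff_not_dvd.mpr P.not_dvd_index)
  obtain ⟨j, -, hj⟩ := Nat.exists_mul_mod_eq_one_of_coprime hcop (hQ ▸ hq)
  let _ : CommGroup Q :=
    { (inferInstance : Group Q) with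
      mul_comm := fun a b => Subtype.ext (hcomm a a.2 b b.2) }
  let ι : H →* Q := (Subgroup.subgroupOfEquivOfLe hPC).toMonoidHom
  let T : C →* Q := MonoidHom.transfer ι
  have hT : ∀ c : C, ((T c : Q) : G) = (c : G) ^ H.index := by
    intro c
    rw [show T c = _ from MonoidHom.transfer_eq_pow ι c fun k g₀ hk => by
      have h := hHc _ hk g₀
      calc g₀⁻¹ * c ^ k * g₀ = g₀ * (g₀⁻¹ * c ^ k * g₀) * g₀⁻¹ := by
            rw [← h, mul_inv_cancel_right]
        _ = c ^ k := by group]
    rfl
  let π : C →* Q := (powMonoidHom j).comp T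
  have hπ : ∀ c : C, ((π c : Q) : G) = (c : G) ^ (H.index * j) := by
    intro c
    show (((T c) ^ j : Q) : G) = _
    rw [Subgroup.coe_pow, hT, pow_mul]
  have hfix : ∀ x : G, x ∈ Q → x ^ (H.index * j) = x := by
    intro x hx
    have h := pow_mod_natCard (⟨x, hx⟩ : Q) (H.index * j)
    rw [hj, pow_one] at h
    exact (congrArg Subtype.val h).symm
  refine ⟨{ P := Q, C := C, N := N, hPC := hPC, hCN := hCN, central := hcent, conjC := hconjC,
            conjP := hconjP, π := π, π_coe := ?_, π_equiv := ?_, fpf := ?_, ti := ?_,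
            vclosed := ?_ }, hQ, ?_, ?_⟩
  · exact fun x => Subtype.ext ((hπ _).trans (hfix x x.2))
  · intro g hg c
    rw [hπ, hπ]
    exact conj_pow
  · intro g hg x hx hx1 hgx
    rw [← hstar x hx hx1, Subgroup.mem_centralizer_iff]
    intro y hy
    rw [Set.mem_singleton_iff] at hy
    subst hy
    calc y * g = (g * y * g⁻¹) * g := by rw [hgx]
      _ = g * y := by group
  · intro g t ht hmem hne
    have hy : ((π ⟨g * (t : G) * g⁻¹, hmem⟩ : Q) : G) = g * ((π t : Q) : G) * g⁻¹ := by
      rw [hπ, hπ]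
      exact conj_pow
    have hx1 : ((π t : Q) : G) ≠ 1 := fun h => ht (Subtype.ext h)
    have hyQ : g * ((π t : Q) : G) * g⁻¹ ∈ Q := hy ▸ (π _).2
    have hy1 : g * ((π t : Q) : G) * g⁻¹ ≠ 1 := fun h => hne (Subtype.ext (hy.trans h))
    have hmap : ∀ z ∈ Q, g * z * g⁻¹ ∈ Q := by
      intro z hz
      have hzc := hPC hz
      rw [← hstar _ (π t).2 hx1, Subgroup.mem_centralizer_iff] at hzc
      have hzx := hzc _ (Set.mem_singleton _)
      have hgz : g * z * g⁻¹ ∈ C := by
        rw [← hstar _ hyQ hy1, Subgroup.mem_centralizer_iff]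
        intro w hw
        rw [Set.mem_singleton_iff] at hw
        subst hw
        calc g * ((π t : Q) : G) * g⁻¹ * (g * z * g⁻¹) = g * (((π t : Q) : G) * z) * g⁻¹ := by group
          _ = g * (z * ((π t : Q) : G)) * g⁻¹ := by rw [hzx]
          _ = _ := by group
      have h2 : ((π ⟨_, hgz⟩ : Q) : G) = g * z * g⁻¹ := by
        rw [hπ]
        show (g * z * g⁻¹) ^ _ = _
        rw [conj_pow, hfix z hz]
      exact h2 ▸ (π _).2
    refine (hNmem g).mpr fun h => ⟨hmap h, fun hh => ?_⟩
    let f : Q → Q := fun z => ⟨g * z * g⁻¹, hmap z z.2⟩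
    have hfinj : Function.Injective f := fun a b hab => by
      have := congrArg Subtype.val hab
      exact Subtype.ext (by simpa [f] using this)
    obtain ⟨a, ha⟩ := (Finite.injective_iff_surjective.mp hfinj) ⟨_, hh⟩
    have := congrArg Subtype.val ha
    simp only [f, mul_left_inj, mul_right_inj] at this
    exact this ▸ a.2
  · intro g t ht hmem
    refine Subtype.ext ?_
    have h1 : (t : G) ^ (H.index * j) = 1 := by rw [← hπ, ht]; rfl
    rw [hπ]
    show (g * (t : G) * g⁻¹) ^ _ = _
    rw [conj_pow, h1]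
    simp
  · exact hC.trans (by rw [hQ])
  · exact hN.trans (by rw [hQ])

/-- The dichotomy for a nonprincipal irreducible character of small degree. -/
theorem small_degree_alternative [Finite G] (p : ℕ) (hp : p.Prime) (hpG : p ∣ Nat.card G)
    (P : Sylow p G)
    (hstar : ∀ x ∈ (P : Subgroup G), x ≠ 1 →
      Subgroup.centralizer ({x} : Set G) = Subgroup.centralizer ((P : Subgroup G) : Set G))
    (χ : Cfsg.IrrCharacter G) (h1 : χ ≠ H26.oneIrr G)
    (hdeg : Cfsg.charDegree χ.1 ^ 2 + 1 < Nat.card P) :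
    (∃ K : Subgroup G, K.Normal ∧ K ≠ ⊤ ∧ (P : Subgroup G) ≤ K) ∨
      ((∃ N : Subgroup G, N.Normal ∧ N.index = Nat.card P) ∧ Cfsg.charDegree χ.1 = 1) := by
  classical
  haveI : Fact p.Prime := ⟨hp⟩
  haveI := Fintype.ofFinite G
  have hP1 : (P : Subgroup G) ≠ ⊥ := P.ne_bot_of_dvd_card hpG
  have hq : 1 < Nat.card P := (Subgroup.one_lt_card_iff_ne_bot _).mpr hP1
  obtain ⟨D, hDP, hDC, hDN⟩ := exists_tiData p P hq hstar
  haveI : Fintype D.P := Fintype.ofFinite _
  haveI : Fintype D.C := Fintype.ofFinite _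
  haveI : Fintype D.N := Fintype.ofFinite _
  by_cases hsimple : ∀ Y : Cfsg.IrrCharacter G, D.nt (D.res Y.1) = 0 → Y = H26.oneIrr G
  · obtain ⟨hd1, he⟩ := D.small_degree hsimple χ h1 (d := Cfsg.charDegree χ.1)
      (char_one_eq_charDegree (H26.irr_isCharacter χ)) (by rw [hDP, ← sq]; exact hdeg)
    refine Or.inr ⟨?_, hd1⟩
    have hNC := D.eq_C_of_e_eq_one he
    rw [hDN, hDC] at hNC
    refine ⟨(MonoidHom.transferSylow P hNC.le).ker, inferInstance, ?_⟩
    exact (MonoidHom.ker_transferSylow_isComplement' P hNC.le).symm.index_eq_card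
  · left
    push_neg at hsimple
    obtain ⟨Y, hY0, hY1⟩ := hsimple
    obtain ⟨n, ρ, hirr, hρ⟩ := Y.2
    refine ⟨ρ.ker, inferInstance, ?_, ?_⟩
    · intro htop
      refine hY1 ?_
      have hconst : ∀ g, Y.1 g = (Module.finrank ℂ (Fin n → ℂ) : ℂ) := by
        intro g
        rw [← hρ, char_eq_degree_iff]
        exact MonoidHom.mem_ker.mp (htop ▸ Subgroup.mem_top g)
      have hne : Cfsg.classInner Y.1 (H26.oneIrr G).1 ≠ 0 := by
        have h0 : Y.1 1 ≠ 0 := H26.irr_one_ne_zero Y
        rw [hconst 1] at h0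
        simp only [Cfsg.classInner, hconst, H26.oneIrr_val, map_one, mul_one, Finset.sum_const,
          Finset.card_univ, nsmul_eq_mul, ← Nat.card_eq_fintype_card]
        exact mul_ne_zero (inv_ne_zero (Nat.cast_ne_zero.mpr Nat.card_pos.ne'))
          (mul_ne_zero (Nat.cast_ne_zero.mpr Nat.card_pos.ne') h0)
      by_contra hne'
      exact hne (by rw [H26.classInner_irr, if_neg hne'])
    · intro x hx
      have hR := D.over_avg (D.res Y.1)
      rw [TIData.nt, sub_eq_zero] at hY0
      rw [← hY0] at hR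
      have h := hR ⟨x, hDP ▸ hx⟩ 1
      simp only [TIData.res, MonoidHom.one_apply, Units.val_one, one_mul, mul_one,
        OneMemClass.coe_one] at h
      rw [MonoidHom.mem_ker]
      refine (char_eq_degree_iff ρ x).mp ?_
      rw [← ρ.char_one, hρ]
      exact h

/-- A faithful character of small degree forces a normal Sylow subgroup. -/
theorem sylow_normal_of_small_faithful (p : ℕ) (hp : p.Prime) :
    ∀ (k : ℕ) (G : Type u) [Group G] [Finite G], Nat.card G = k → p ∣ Nat.card G →
      ∀ (P : Sylow p G), (∀ x ∈ (P : Subgroup G), x ≠ 1 →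
        Subgroup.centralizer ({x} : Set G) = Subgroup.centralizer ((P : Subgroup G) : Set G)) →
      ∀ (χ : G → ℂ), Cfsg.IsCharacter G χ → (∀ g : G, χ g = χ 1 → g = 1) →
        Cfsg.charDegree χ ^ 2 + 1 < Nat.card P → (P : Subgroup G).Normal := by
  classical
  intro k
  induction k using Nat.strong_induction_on with
  | h k ih =>
    intro G _ _ hk hpG P hstar χ hχ hfaith hdeg
    haveI : Fact p.Prime := ⟨hp⟩
    haveI := Fintype.ofFinite G
    by_cases hK : ∃ K : Subgroup G, K.Normal ∧ K ≠ ⊤ ∧ (P : Subgroup G) ≤ K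
    · obtain ⟨K, hKn, hKtop, hPK⟩ := hK
      haveI := hKn
      have hcard : Nat.card (P.subtype hPK : Subgroup K) = Nat.card P :=
        Nat.card_congr (Subgroup.subgroupOfEquivOfLe hPK).toEquiv
      have hlt : Nat.card K < k := by
        rw [← hk, ← K.card_mul_index]
        exact lt_mul_of_one_lt_right Nat.card_pos (lt_of_le_of_ne
          (Nat.one_le_iff_ne_zero.mpr K.index_ne_zero_of_finite)
          (fun h => hKtop (Subgroup.index_eq_one.mp h.symm)))
      have hpK : p ∣ Nat.card K := by
        refine dvd_trans ?_ (Subgroup.card_dvd_of_le hPK)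
        obtain ⟨n, hn⟩ := P.isPGroup'.exists_card_eq
        rw [hn]
        refine dvd_pow_self p fun h0 => ?_
        have := P.ne_bot_of_dvd_card hpG
        exact this ((Subgroup.card_eq_one).mp (by rw [hn, h0, pow_zero]))
      have hstarK : ∀ x ∈ ((P.subtype hPK : Sylow p K) : Subgroup K), x ≠ 1 →
          Subgroup.centralizer ({x} : Set K) =
            Subgroup.centralizer (((P.subtype hPK : Sylow p K) : Subgroup K) : Set K) := by
        intro x hx hx1
        have h := hstar x hx (fun h => hx1 (Subtype.ext h))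
        ext y
        have hy : (y : G) ∈ Subgroup.centralizer ({(x : G)} : Set G) ↔
            (y : G) ∈ Subgroup.centralizer ((P : Subgroup G) : Set G) := by rw [h]
        simp only [Subgroup.mem_centralizer_iff, Set.mem_singleton_iff, forall_eq] at hy ⊢
        constructor
        · intro hxy z hz
          exact Subtype.ext (hy.mp (congrArg Subtype.val hxy) z hz)
        · intro hall
          exact Subtype.ext (hy.mpr fun z hz =>
            congrArg Subtype.val (hall ⟨z, hPK hz⟩ hz))
      have hn := ih (Nat.card K) hlt K rfl hpK (P.subtype hPK) hstarK (fun x : K => χ x)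
        (H26.isCharacter_comp hχ K.subtype)
        (fun g hg => Subtype.ext (hfaith g hg))
        (by rw [hcard]; simpa [Cfsg.charDegree] using hdeg)
      haveI := Sylow.characteristic_of_normal (P.subtype hPK) hn
      have h2 : (((P.subtype hPK : Sylow p K) : Subgroup K).map K.subtype).Normal :=
        ConjAct.normal_of_characteristic_of_normal
      rwa [Sylow.coe_subtype, Subgroup.subgroupOf_map_subtype, inf_eq_left.mpr hPK] at h2
    · obtain ⟨m, hm, hexp⟩ := H26.exists_nat_coeffs hχ
      have hlin : ∀ ψ, m ψ ≠ 0 → Cfsg.charDegree ψ.1 = 1 := by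
        intro ψ hψ
        by_cases h1 : ψ = H26.oneIrr G
        · subst h1
          simp [Cfsg.charDegree, H26.oneIrr_val]
        have hle : Cfsg.charDegree ψ.1 ≤ Cfsg.charDegree χ := by
          have h : ((Cfsg.charDegree χ : ℕ) : ℂ) = ((∑ φ, m φ * Cfsg.charDegree φ.1 : ℕ) : ℂ) := by
            rw [← char_one_eq_charDegree hχ]
            conv_lhs => rw [hexp]
            rw [Nat.cast_sum, Finset.sum_apply]
            refine Finset.sum_congr rfl fun φ _ => ?_
            rw [Pi.smul_apply, smul_eq_mul, char_one_eq_charDegree (H26.irr_isCharacter φ),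
              Nat.cast_mul]
          rw [Nat.cast_inj] at h
          rw [h]
          refine le_trans ?_ (Finset.single_le_sum (f := fun φ => m φ * Cfsg.charDegree φ.1)
            (fun _ _ => Nat.zero_le _) (Finset.mem_univ ψ))
          exact Nat.le_mul_of_pos_left _ (Nat.pos_of_ne_zero hψ)
        have hsq : Cfsg.charDegree ψ.1 ^ 2 + 1 < Nat.card P :=
          lt_of_le_of_lt (Nat.add_le_add_right (Nat.pow_le_pow_left hle 2) 1) hdeg
        exact ((small_degree_alternative p hp hpG P hstar ψ h1 hsq).resolve_left hK).2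
      have hab : ∀ a b : G, a * b = b * a := by
        intro a b
        have h : χ (a * b * (b * a)⁻¹) = χ 1 := by
          rw [hexp, Finset.sum_apply, Finset.sum_apply]
          refine Finset.sum_congr rfl fun ψ _ => ?_
          by_cases hψ : m ψ = 0
          · simp [hψ]
          obtain ⟨f, hf⟩ := H26.exists_hom_of_isCharacter_one (H26.irr_isCharacter ψ) (by
            rw [char_one_eq_charDegree (H26.irr_isCharacter ψ), hlin ψ hψ, Nat.cast_one])
          simp only [Pi.smul_apply]
          rw [← hf, ← hf, map_one, map_mul, map_inv, map_mul, map_mul, mul_comm (f b),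
            mul_inv_cancel]
        exact mul_inv_eq_one.mp (hfaith _ h)
      exact ⟨fun x hx g => by rwa [hab g x, mul_inv_cancel_right]⟩

end Cfsg.Agent.H25
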